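import Cfsg.Agent.Lib.PSLTwo.MaxTools

/-! Maximal subgroups of `PGL₂(q)`, `q` odd, not containing `PSL₂(q)`. -/

set_option autoImplicit false
set_option linter.unusedSectionVars false
set_option linter.style.haveILetI false
set_option linter.style.longLine false

open Matrix MulAction OnePoint
open scoped MatrixGroups

namespace Cfsg.Agent.Lib.PSLTwo

variable {F : Type*} [Field F] [Fintype F] [DecidableEq F]

theorem sylow_two_le_qN {x y : F} (hxy : x ^ 2 + y ^ 2 = -1) (h2 : (2 : F) ≠ 0) {M : Subgroup PGL(2, F)}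
    (hM : Nat.card M = 8) (hfac : (Nat.card PGL(2, F)).factorization 2 = 3) :
    ∃ γ : PGL(2, F), M.map (MulAut.conj γ).toMonoidHom ≤ qN hxy := by
  haveI : Fact (Nat.Prime 2) := ⟨Nat.prime_two⟩
  obtain ⟨P, hP⟩ := Sylow.exists_subgroup_card_pow_prime 2 (n := 3) (G := qN hxy)
    (by rw [card_qN hxy h2]; norm_num)
  set Q := P.map (qN hxy).subtype with hQ
  have hQ8 : Nat.card Q = 2 ^ (Nat.card PGL(2, F)).factorization 2 := by
    rw [hQ, Subgroup.card_map_of_injective (qN hxy).subtype_injective, hP, hfac]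
  have hM8 : Nat.card M = 2 ^ (Nat.card PGL(2, F)).factorization 2 := by rw [hM, hfac]; rfl
  obtain ⟨γ, hγ⟩ := MulAction.exists_smul_eq PGL(2, F) (Sylow.ofCard M hM8) (Sylow.ofCard Q hQ8)
  refine ⟨γ, ?_⟩
  have h := congrArg (fun S : Sylow 2 PGL(2, F) => (S : Subgroup PGL(2, F))) hγ
  simp only [Sylow.coe_subgroup_smul, Sylow.coe_ofCard] at h
  rintro _ ⟨g, hg, rfl⟩
  have : MulAut.conj γ g ∈ Q := h ▸ ⟨g, hg, rfl⟩
  exact Subgroup.map_subtype_le P this

/-- The possible shapes. -/
inductive PGLMax (E : Type*) [Field E] [DecidableEq E] [Algebra F E] {x y : F} (hxy : x ^ 2 + y ^ 2 = -1)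
    (M : Subgroup PGL(2, F)) : Prop
  | point (a : OnePoint F) (h : M = stabilizer PGL(2, F) a)
  | pair (u v : OnePoint E) (huv : IsTorusPair F u v) (h : M = pairStab F u v)
      (h5 : IsRat F u → Fintype.card F ≠ 5)
  | sym (p : ℕ) (hp : p.Prime) (hF : Fintype.card F = p) (h5 : 5 ≤ p) (h2 : ¬ IsSquare (2 : F))
      (γ : PGL(2, F)) (h : M.map (MulAut.conj γ).toMonoidHom = qN hxy)
  | subfield (K : Subfield F) (r : ℕ) (hr : r.Prime) (hodd : Odd r) (hm : Fintype.card F = Nat.card K ^ r)
      (γ : PGL(2, F)) (h : M.map (MulAut.conj γ).toMonoidHom = subPGL K)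

theorem pglMax {E : Type*} [Field E] [DecidableEq E] [Finite E] [Algebra F E]
    (hE : Nat.card E = Fintype.card F ^ 2) (hodd : Odd (Fintype.card F)) (h3 : 3 < Fintype.card F)
    {a b : ℕ} (hxy : (a : F) ^ 2 + (b : F) ^ 2 = -1) (M : Subgroup PGL(2, F)) (hM : IsCoatom M)
    (hML : ¬ Lsub F ≤ M) : PGLMax E hxy M := by
  classical
  obtain ⟨p, hp⟩ := CharP.exists F
  haveI : Fact p.Prime := ⟨CharP.char_is_prime F p⟩
  haveI : (Lsub F).Normal := Lsub_normal
  have h2 : (2 : F) ≠ 0 := Ring.two_ne_zero (ringChar_ne_two hodd)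
  have hLtop : Lsub F < ⊤ := card_lt_top (by
    have := two_mul_card_Lsub (F := F) hodd
    have : 0 < Nat.card (Lsub F) := Nat.card_pos
    omega)
  have hnL : ¬ M ≤ Lsub F := fun h => by
    rcases eq_or_lt_of_le h with e | e
    · exact hML e.ge
    · exact hLtop.ne (hM.2 _ e)
  have heq : ∀ X, M ≤ X → X < ⊤ → M = X := fun X h1 h2 =>
    (eq_or_lt_of_le h1).resolve_right fun e => h2.ne (hM.2 _ e)
  rcases classify (p := p) hE M with ⟨c, hc⟩ | ⟨u, v, huv, hu, hc⟩ | ⟨u, v, huv, k, -, -, -, hc, -, -⟩ |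
    ⟨-, -, e⟩ | ⟨hp24, hc, e⟩ | ⟨-, -, e⟩ | ⟨K, γ, hq3, hK⟩
  · exact .point c (heq _ hc (stab_lt_top hE c))
  · have h1 := heq _ (hc.trans (torus_le_pairStab u v)) (pairStab_lt_top hE (by omega) huv)
    obtain ⟨s, hs, hsu⟩ := exists_swap hE huv
    exact absurd ((hc (h1 ▸ hs)).1.symm.trans hsu) huv.1
  · have h1 := heq _ hc (pairStab_lt_top hE (by omega) huv)
    refine .pair u v huv h1 fun hr h5 => ?_
    have hc8 : Nat.card M = 8 := by rw [h1, (pairStab_spec hE huv).1, (card_torus hE huv).1 hr, h5]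
    have h120 : Nat.card PGL(2, F) = 120 := by rw [card_pgl, h5]; rfl
    have h8 : (120 : ℕ).factorization 2 = 3 := by
      rw [show (120 : ℕ) = 2 ^ 3 * 15 by rfl, Nat.factorization_mul (by norm_num) (by norm_num),
        Nat.prime_two.factorization_pow, Finsupp.add_apply, Finsupp.single_eq_same,
        Nat.factorization_eq_zero_of_not_dvd (by norm_num : ¬ 2 ∣ 15)]
    obtain ⟨γ, hγ⟩ := sylow_two_le_qN hxy h2 hc8 (h120.symm ▸ h8)
    have hle : M ≤ (qN hxy).map (MulAut.conj γ⁻¹).toMonoidHom := by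
      rw [← map_conj_inv M γ]; exact Subgroup.map_mono hγ
    have h24 : Nat.card ((qN hxy).map (MulAut.conj γ⁻¹).toMonoidHom) = 24 := by
      rw [card_conj_map, card_qN hxy h2]
    have := heq _ hle (card_lt_top (by rw [h24, h120]; norm_num))
    rw [← this, hc8] at h24
    norm_num at h24
  · exact absurd (le_Lsub_of_alt_four e) hnL
  · obtain ⟨γ, hγ⟩ := exists_conj_qN hxy h2 e
    have hns : ¬ IsSquare (2 : F) := fun h => hnL (by
      rw [← map_conj_inv M γ, hγ]
      exact conj_le_Lsub ((qN_le_Lsub_iff hxy h2).mpr h) γ⁻¹)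
    have hp5 : 5 ≤ p := by
      have h := (Fact.out : p.Prime).two_le
      by_contra hlt
      interval_cases p
      · exact hp24 (by norm_num)
      · exact hp24 (by norm_num)
      · exact absurd (Fact.out : (4 : ℕ).Prime) (by norm_num)
    obtain ⟨Kp, hKp⟩ := prime_card_subfield (F := F) (p := p)
    refine .sym p Fact.out ?_ hp5 hns γ hγ
    by_contra hne
    obtain ⟨m, -, hm⟩ := exists_card_pow Kp
    have hle : Nat.card Kp ≤ Fintype.card F := by
      rw [← Nat.card_eq_fintype_card]; exact Finite.card_subtype_le _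
    have hlt := subPGL_lt_top hE Kp (lt_of_le_of_ne hle fun e => hne (e.symm.trans hKp))
    have hsub : (qN hxy).map (MulAut.conj γ⁻¹).toMonoidHom ≤ (subPGL Kp).map (MulAut.conj γ⁻¹).toMonoidHom :=
      Subgroup.map_mono (qN_le_subPGL hxy h2 (natCast_mem Kp a) (natCast_mem Kp b))
    rw [← hγ, map_conj_inv] at hsub
    have := heq _ hsub (card_lt_top (by
      rw [card_conj_map]
      have := Subgroup.card_top (G := PGL(2, F))
      rw [card_subPGL, card_pgl]
      exact nat_cube_lt (lt_of_le_of_ne hle fun e => hne (e.symm.trans hKp)) Fintype.one_lt_card))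
    have hcc := hc
    rw [this, card_conj_map, card_subPGL, hKp] at hcc
    have := nat_cube_mono hp5
    norm_num at this
    omega
  · exact absurd (le_Lsub_of_alt_five e) hnL
  · have hle : M ≤ (subPGL K).map (MulAut.conj γ⁻¹).toMonoidHom := by
      rw [← map_conj_inv M γ]
      refine Subgroup.map_mono ?_
      rcases hK with h | ⟨-, h⟩
      · exact h.le
      · exact h.le.trans (subPSL_le_subPGL K)
    by_cases hfull : Nat.card K = Fintype.card F
    · exfalso
      rcases hK with h | ⟨ho, h⟩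
      · refine hM.1 (Subgroup.eq_top_of_card_eq _ ?_)
        rw [← card_conj_map M γ, h, card_subPGL, card_pgl, hfull]
      · refine hnL ?_
        rw [← map_conj_inv M γ, h]
        exact conj_le_Lsub (subPSL_le_Lsub K) _
    have hKlt : Nat.card K < Fintype.card F := lt_of_le_of_ne (by
      rw [← Nat.card_eq_fintype_card]; exact Finite.card_subtype_le _) hfull
    have hlt : (subPGL K).map (MulAut.conj γ⁻¹).toMonoidHom < ⊤ := card_lt_top (by
      rw [card_conj_map, card_subPGL, card_pgl]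
      exact nat_cube_lt hKlt Fintype.one_lt_card)
    have h1 := heq _ hle hlt
    have hM' : M.map (MulAut.conj γ).toMonoidHom = subPGL K := by
      rw [h1, map_conj_map_conj, mul_inv_cancel, map_one]
      exact Subgroup.map_id _
    obtain ⟨m, -, hm⟩ := exists_card_pow K
    have hmodd : Odd m := Nat.not_even_iff_odd.mp fun he => hnL (by
      rw [h1]
      exact conj_le_Lsub ((subPGL_le_Lsub_iff K).mpr ((forall_square_iff hodd K hm).mpr he)) _)
    have hm1 : m ≠ 1 := fun e => hfull (by rw [hm, e, pow_one])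
    refine .subfield K m ?_ hmodd hm γ hM'
    by_contra hnp
    set r := m.minFac with hr
    have hrp : r.Prime := Nat.minFac_prime hm1
    have hm0 : 0 < m := hmodd.pos
    have hrm : r < m := lt_of_le_of_ne (Nat.minFac_le hm0) fun e => hnp (e ▸ hrp)
    obtain ⟨K₂, hK₂, hc₂⟩ := exists_subfield_between (p := p) K hm (Nat.minFac_dvd m) hrp.ne_zero
    have hq1 : 1 < Nat.card K := one_lt_card_subfield K
    have h2lt : Nat.card K₂ < Fintype.card F := by rw [hc₂, hm]; exact Nat.pow_lt_pow_right hq1 hrm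
    have h12 : Nat.card K < Nat.card K₂ := by rw [hc₂]; exact lt_self_pow₀ hq1 hrp.one_lt
    have := heq _ (hle.trans (Subgroup.map_mono (subPGL_mono hK₂))) (card_lt_top (by
      rw [card_conj_map, card_subPGL, card_pgl]; exact nat_cube_lt h2lt Fintype.one_lt_card))
    have h3' := congrArg (fun S : Subgroup PGL(2, F) => Nat.card S) (h1.symm.trans this)
    simp only [card_conj_map, card_subPGL] at h3'
    exact (nat_cube_lt h12 (by omega)).ne h3'

end Cfsg.Agent.Lib.PSLTwo
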