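import Cfsg.Agent.Lib.PSLTwo.MaxTools

/-! The dihedral maximal subgroups. -/

set_option autoImplicit false
set_option linter.unusedSectionVars false
set_option linter.style.haveILetI false
set_option linter.style.longLine false

open Matrix MulAction OnePoint
open scoped MatrixGroups

namespace Cfsg.Agent.Lib.PSLTwo

theorem orders_small {G : Type*} [Group G] (h : Nonempty (G ≃* alternatingGroup (Fin 4)) ∨
    Nonempty (G ≃* Equiv.Perm (Fin 4)) ∨ Nonempty (G ≃* alternatingGroup (Fin 5))) (g : G) :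
    orderOf g ≤ 5 := by
  have key : ∀ {A : Type} [Group A] (_ : ∀ a : A, a * a = 1 ∨ a * a * a = 1 ∨ a * a * a * a = 1 ∨ a * a * a * a * a = 1)
      (_ : G ≃* A), orderOf g ≤ 5 := fun {A} _ hA e => by
    rw [← e.orderOf_eq]
    have hle : ∀ n, 0 < n → n ≤ 5 → e g ^ n = 1 → orderOf (e g) ≤ 5 := fun n h0 h5 h =>
      (Nat.le_of_dvd h0 (orderOf_dvd_of_pow_eq_one h)).trans h5
    rcases hA (e g) with h | h | h | h
    · exact hle 2 (by norm_num) (by norm_num) (by simpa [pow_succ] using h)
    · exact hle 3 (by norm_num) (by norm_num) (by simpa [pow_succ] using h)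
    · exact hle 4 (by norm_num) (by norm_num) (by simpa [pow_succ] using h)
    · exact hle 5 (by norm_num) (by norm_num) (by simpa [pow_succ] using h)
  rcases h with ⟨⟨e⟩⟩ | ⟨⟨e⟩⟩ | ⟨⟨e⟩⟩
  · exact key (by decide +kernel) e
  · exact key (by decide +kernel) e
  · exact key (by decide +kernel) e

variable {F E : Type*} [Field F] [Fintype F] [DecidableEq F] [Field E] [DecidableEq E] [Finite E]
  [Algebra F E] (hE : Nat.card E = Fintype.card F ^ 2)

include hE

/-- The structure of a pair stabiliser in `L`. -/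
theorem pair_data {u v : OnePoint E} (huv : IsTorusPair F u v) :
    ∃ k, k = Nat.card (torus F u v) / Nat.gcd 2 (Fintype.card F - 1) ∧
      Nat.card (torus F u v ⊓ Lsub F : Subgroup PGL(2, F)) = k ∧
      Nat.card (pairStab F u v ⊓ Lsub F : Subgroup PGL(2, F)) = 2 * k ∧
      Nonempty ((pairStab F u v ⊓ Lsub F : Subgroup PGL(2, F)) ≃* DihedralGroup k) ∧
      ∃ s ∈ pairStab F u v ⊓ Lsub F, s • u = v := by
  rcases Nat.even_or_odd (Fintype.card F) with he | ho
  · have hg : Nat.gcd 2 (Fintype.card F - 1) = 1 := by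
      rcases (Nat.dvd_prime Nat.prime_two).mp (Nat.gcd_dvd_left 2 (Fintype.card F - 1)) with e | e
      · exact e
      · have := Nat.gcd_dvd_right 2 (Fintype.card F - 1)
        rw [e] at this
        have := Fintype.card_pos (α := F)
        obtain ⟨r, hr⟩ := he
        omega
    obtain ⟨hc, ⟨e⟩⟩ := pairStab_spec hE huv
    obtain ⟨s, hs, hsu⟩ := exists_swap hE huv
    have hL := Lsub_eq_top_of_even (F := F) he
    refine ⟨_, rfl, ?_, ?_, ⟨?_⟩, s, ⟨hs, hL ▸ Subgroup.mem_top s⟩, hsu⟩
    · rw [hL, inf_top_eq, hg, Nat.div_one]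
    · rw [hL, inf_top_eq, hg, Nat.div_one, hc]
    · rw [hg, Nat.div_one]
      exact (MulEquiv.subgroupCongr (by rw [hL, inf_top_eq])).trans e
  · have hg : Nat.gcd 2 (Fintype.card F - 1) = 2 := by
      obtain ⟨r, hr⟩ := ho
      rw [hr, Nat.add_sub_cancel, Nat.gcd_mul_right_right]
    obtain ⟨g, hg1, hg2⟩ := exists_torus_not_Lsub hE ho huv
    have h2T := card_inf_Lsub ho (T := torus F u v) ⟨g, hg1, hg2⟩
    obtain ⟨hc, he, hs⟩ := pairStab_Lsub_spec hE ho huv
    exact ⟨_, rfl, by rw [hg]; omega, by rw [hg, hc]; omega, by rw [hg]; exact he, hs⟩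

/-- A pair stabiliser is maximal in `L`, small cases aside. -/
theorem maxIn_pair {u v : OnePoint E} (huv : IsTorusPair F u v) (h4 : 4 ≤ Fintype.card F)
    (hr : IsRat F u → Odd (Fintype.card F) → 13 ≤ Fintype.card F)
    (hn : ¬ IsRat F u → Fintype.card F ≠ 7 ∧ Fintype.card F ≠ 9) :
    MaxIn (pairStab F u v ⊓ Lsub F) (Lsub F) := by
  classical
  obtain ⟨p, hp⟩ := CharP.exists F
  haveI : Fact p.Prime := ⟨CharP.char_is_prime F p⟩
  have hpp : p.Prime := Fact.out
  obtain ⟨n, -, hn'⟩ := FiniteField.card F p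
  have P := poles (F := F) (E := E) (p := p) hE
  obtain ⟨k, hk, hT, hD, -, s, hsD, hsu⟩ := pair_data hE huv
  set D := pairStab F u v ⊓ Lsub F with hDdef
  have hgd : Nat.gcd 2 (Fintype.card F - 1) ∣ 2 := Nat.gcd_dvd_left _ _
  have hcases : Nat.card (torus F u v) = Fintype.card F - 1 ∨ Nat.card (torus F u v) = Fintype.card F + 1 :=
    card_torus_cases hE huv
  have hk3 : 3 ≤ k ∧ (Even (Fintype.card F) → k = Nat.card (torus F u v)) ∧
      (Odd (Fintype.card F) → 2 * k = Nat.card (torus F u v)) ∧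
      ((Odd (Fintype.card F) ∧ k ≤ 5) → Fintype.card F = 5 ∧ k = 3) := by
    have hT' := card_torus hE huv
    rcases Nat.even_or_odd (Fintype.card F) with he | ho
    · have hg : Nat.gcd 2 (Fintype.card F - 1) = 1 := by
        rcases (Nat.dvd_prime Nat.prime_two).mp hgd with e | e
        · exact e
        · have := Nat.gcd_dvd_right 2 (Fintype.card F - 1)
          rw [e] at this
          obtain ⟨r, hr⟩ := he
          omega
      rw [hg, Nat.div_one] at hk
      refine ⟨by omega, fun _ => hk, fun ho => absurd he (Nat.not_even_iff_odd.mpr ho),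
        fun ho => absurd he (Nat.not_even_iff_odd.mpr ho.1)⟩
    · have hg : Nat.gcd 2 (Fintype.card F - 1) = 2 := by
        obtain ⟨r, hr⟩ := ho
        rw [hr, Nat.add_sub_cancel, Nat.gcd_mul_right_right]
      rw [hg] at hk
      obtain ⟨r, hr'⟩ := id ho
      by_cases hu : IsRat F u
      · have := hr hu ho
        rw [hT'.1 hu] at hk ⊢
        exact ⟨by omega, fun he => absurd he (Nat.not_even_iff_odd.mpr ho), fun _ => by omega, fun h => by omega⟩
      · obtain ⟨h7, h9⟩ := hn hu
        rw [hT'.2 hu] at hk ⊢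
        exact ⟨by omega, fun he => absurd he (Nat.not_even_iff_odd.mpr ho), fun _ => by omega, fun h => by omega⟩
  obtain ⟨hk3, hke, hko, hk5⟩ := hk3
  haveI : IsCyclic (torus F u v) := P.cyc u v huv.1
  haveI : IsCyclic (torus F u v ⊓ Lsub F : Subgroup PGL(2, F)) :=
    isCyclic_of_injective (Subgroup.inclusion inf_le_left) (Subgroup.inclusion_injective _)
  obtain ⟨⟨t, ht⟩, hgen⟩ := IsCyclic.exists_generator (α := (torus F u v ⊓ Lsub F : Subgroup PGL(2, F)))
  have htk : orderOf t = k := by
    rw [← hT, ← Subgroup.orderOf_mk (H := torus F u v ⊓ Lsub F) t ht]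
    exact orderOf_eq_card_of_forall_mem_zpowers hgen
  have htD : t ∈ D := ⟨torus_le_pairStab u v ht.1, ht.2⟩
  have ht2 : t ^ 2 ≠ 1 := fun e => by
    have := Nat.le_of_dvd two_pos (orderOf_dvd_of_pow_eq_one e)
    omega
  have ht1 : t ≠ 1 := fun e => ht2 (by rw [e, one_pow])
  have only : ∀ g : PGL(2, F), g ≠ 1 → g • u = u → g • v = v → ∀ z, g • z = z → z = u ∨ z = v :=
    fun g hg hgu hgv z hz => by
      by_contra h
      push Not at h
      exact hg (P.three g u v z huv.1 h.1.symm h.2.symm hgu hgv hz)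
  have hfix : ∀ z, ¬ ∀ g ∈ D, g • z = z := fun z hz => by
    have hs := hz s hsD
    rcases only t ht1 ht.1.1 ht.1.2 z (hz t htD) with e | e <;> rw [e] at hs
    · exact huv.1 (hs.symm.trans hsu)
    · exact huv.1 (smul_left_cancel s (hsu.trans hs.symm))
  have htL : Nat.card (Lsub F) * Nat.gcd 2 (Fintype.card F - 1) = Fintype.card F * (Fintype.card F ^ 2 - 1) := by
    rw [mul_comm]; exact card_Lsub_mul
  refine ⟨lt_of_le_of_ne inf_le_right fun e => ?_, fun X hX1 hX2 => ?_⟩
  · rw [e] at hD
    rw [hD] at htL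
    have hle : Nat.card (torus F u v) ≤ Fintype.card F + 1 := by omega
    have h2g : 2 * k * Nat.gcd 2 (Fintype.card F - 1) ≤ 2 * Nat.card (torus F u v) := by
      rw [mul_assoc]; refine Nat.mul_le_mul_left 2 ?_
      rw [hk]; exact Nat.div_mul_le_self _ _
    have : 4 * (Fintype.card F ^ 2 - 1) ≤ Fintype.card F * (Fintype.card F ^ 2 - 1) := Nat.mul_le_mul_right _ h4
    have := Nat.pow_le_pow_left h4 2
    have : 4 * Fintype.card F ≤ Fintype.card F ^ 2 := by rw [sq]; exact Nat.mul_le_mul_right _ h4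
    omega
  have hdvd : 2 * k ∣ Nat.card X := hD ▸ Subgroup.card_dvd_of_le hX1
  have hord : k ≤ 5 ∨ ¬ (Nonempty (X ≃* alternatingGroup (Fin 4)) ∨ Nonempty (X ≃* Equiv.Perm (Fin 4)) ∨
      Nonempty (X ≃* alternatingGroup (Fin 5))) := by
    refine or_iff_not_imp_right.mpr fun h => ?_
    rw [← htk, ← Subgroup.orderOf_mk (H := X) t (hX1 htD)]
    exact orders_small (not_not.mp h) _
  have hpodd : ¬ p ∣ 2 → Odd (Fintype.card F) := fun h => hn' ▸ (hpp.odd_of_ne_two fun e => h (e ▸ dvd_rfl)).pow
  rcases classify (p := p) hE X with ⟨a, ha⟩ | ⟨x, y, -, -, ha⟩ | ⟨x, y, hxy, j, -, -, -, ha, -, -⟩ |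
    ⟨hp12, hc, e⟩ | ⟨hp24, hc, e⟩ | ⟨hp60, hc, e⟩ | ⟨K, γ, hq3, hK⟩
  · exact absurd (fun g hg => by rw [← inc_smul, ha (hX1 hg)]) (hfix (inc E a))
  · exact absurd (fun g hg => (ha (hX1 hg)).1) (hfix x)
  · refine Or.inl (le_antisymm (le_inf ?_ hX2) hX1)
    have h2 : ∀ z, (z = x ∨ z = y) → t ^ 2 • z = z := fun z hz => by
      rw [pow_two, mul_smul]
      rcases (mem_pairStab.mp (ha (hX1 htD))) with ⟨e1, e2⟩ | ⟨e1, e2⟩ <;> rcases hz with rfl | rfl <;>
        simp [e1, e2]
    have hu2 : t ^ 2 • u = u := by rw [pow_two, mul_smul, ht.1.1, ht.1.1]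
    have hv2 : t ^ 2 • v = v := by rw [pow_two, mul_smul, ht.1.2, ht.1.2]
    have hx := only _ ht2 hu2 hv2 x (h2 x (Or.inl rfl))
    have hy := only _ ht2 hu2 hv2 y (h2 y (Or.inr rfl))
    refine ha.trans fun g hg => ?_
    rw [mem_pairStab] at hg ⊢
    rcases hx with hx | hx <;> rcases hy with hy | hy
    · exact absurd (hx.trans hy.symm) hxy.1
    · rw [hx, hy] at hg; exact hg
    · rw [hx, hy] at hg; tauto
    · exact absurd (hx.trans hy.symm) hxy.1
  · exfalso
    have h5 := hk5 ⟨hpodd fun h => hp12 (h.trans (by norm_num)), hord.resolve_right (not_not.mpr (Or.inl e))⟩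
    obtain ⟨e'⟩ := e
    -- no dihedral subgroup of order six
    have hsx : s * t * s⁻¹ = t⁻¹ := by
      have hsP : s ∈ pairStab F u v := hsD.1
      have hsv : s • v = u := by
        rcases mem_pairStab.mp hsP with ⟨e1, -⟩ | ⟨-, e2⟩
        · exact absurd (e1.symm.trans hsu) huv.1
        · exact e2
      have hst : (s * t) * (s * t) = 1 := by
        obtain ⟨z, hz⟩ := P.exists_fix (s * t)
        have h1 : (s * t) • u = v := by rw [mul_smul, ht.1.1, hsu]
        have h2 : (s * t) • v = u := by rw [mul_smul, ht.1.2, hsv]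
        refine P.three _ u v z huv.1 ?_ ?_ (by rw [mul_smul, h1, h2]) (by rw [mul_smul, h2, h1])
          (by rw [mul_smul, hz, hz])
        · rintro rfl; exact huv.1 (hz.symm.trans h1)
        · rintro rfl; exact huv.1 (h2.symm.trans hz)
      have hss : s * s = 1 := by
        obtain ⟨z, hz⟩ := P.exists_fix s
        refine P.three _ u v z huv.1 ?_ ?_ (by rw [mul_smul, hsu, hsv]) (by rw [mul_smul, hsv, hsu])
          (by rw [mul_smul, hz, hz])
        · rintro rfl; exact huv.1 (hz.symm.trans hsu)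
        · rintro rfl; exact huv.1 (hsv.symm.trans hz)
      calc s * t * s⁻¹ = (s * t) * (s * t) * t⁻¹ * (s * s)⁻¹ := by group
        _ = t⁻¹ := by rw [hst, hss, inv_one, mul_one, one_mul]
    have hA : ∀ a b : alternatingGroup (Fin 4), a * a * a = 1 → a ≠ 1 → b * a * b⁻¹ ≠ a⁻¹ := by decide +kernel
    refine hA (e' ⟨t, hX1 htD⟩) (e' ⟨s, hX1 hsD⟩) ?_ ?_ ?_
    · rw [← map_mul, ← map_mul, ← map_one e']
      exact congrArg e' (Subtype.ext (by
        show t * t * t = 1
        rw [← pow_orderOf_eq_one t, htk, h5.2, pow_succ, pow_two]))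
    · exact fun h => ht1 (congrArg Subtype.val (e'.map_eq_one_iff.mp h))
    · rw [← map_inv, ← map_mul, ← map_mul, ← map_inv]
      exact congrArg e' (Subtype.ext hsx)
  · exfalso
    have ho := hpodd fun h => hp24 (h.trans (by norm_num))
    obtain ⟨h5, -⟩ := hk5 ⟨ho, hord.resolve_right (not_not.mpr (Or.inr (Or.inl e)))⟩
    have hd := Subgroup.card_dvd_of_le hX2
    have hL := two_card_L ho
    rw [h5] at hL
    rw [hc, show Nat.card (Lsub F) = 60 by omega] at hd
    norm_num at hd
  · have ho : Odd (Fintype.card F) := hpodd fun h => by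
      rcases hp60 with h' | h'
      · exact h' (h.trans (by norm_num))
      · subst h'; norm_num at h
    obtain ⟨h5, -⟩ := hk5 ⟨ho, hord.resolve_right (not_not.mpr (Or.inr (Or.inr e)))⟩
    refine Or.inr (Subgroup.eq_of_le_of_card_ge hX2 ?_)
    have hL := two_card_L ho
    rw [h5] at hL
    omega
  · obtain ⟨m, hm, hm'⟩ := exists_card_pow K
    rcases (show m = 1 ∨ 2 ≤ m by omega) with rfl | hm2
    · rw [pow_one] at hm'
      rcases Nat.even_or_odd (Fintype.card F) with he | ho
      · refine Or.inr ?_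
        rw [Lsub_eq_top_of_even (F := F) he]
        rcases card_of_subfield hK with c | ⟨ho', -⟩
        · exact Subgroup.eq_top_of_card_eq _ (by rw [c, ← hm', card_pgl])
        · exact absurd he (hm' ▸ Nat.not_even_iff_odd.mpr ho')
      · exact Or.inr (eq_Lsub_of_full ho hX2 hm'.symm hK)
    exfalso
    have hle : X.map (MulAut.conj γ).toMonoidHom ≤ subPGL K := by
      rcases hK with h | ⟨-, h⟩
      · exact h.le
      · exact h.le.trans (subPSL_le_subPGL K)
    have ho : orderOf (MulAut.conj γ t) = k := by rw [MulEquiv.orderOf_eq, htk]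
    have hcop : Nat.Coprime k (Nat.card K) := by
      have hco : Nat.Coprime (Nat.card (torus F u v)) (Fintype.card F) := by
        have h1 : Nat.gcd (Nat.card (torus F u v)) (Fintype.card F) ∣ 1 := by
          have g1 := Nat.gcd_dvd_left (Nat.card (torus F u v)) (Fintype.card F)
          have g2 := Nat.gcd_dvd_right (Nat.card (torus F u v)) (Fintype.card F)
          have hq0 := Fintype.card_pos (α := F)
          rcases hcases with e | e
          · have := Nat.dvd_sub g2 g1
            rwa [show Fintype.card F - Nat.card (torus F u v) = 1 by omega] at this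
          · have := Nat.dvd_sub g1 g2
            rwa [show Nat.card (torus F u v) - Fintype.card F = 1 by omega] at this
        exact Nat.dvd_one.mp h1
      have hk' : k ∣ Nat.card (torus F u v) := hT ▸ Subgroup.card_dvd_of_le inf_le_left
      exact (hco.coprime_dvd_left hk').coprime_dvd_right (hm' ▸ dvd_pow_self _ (by omega))
    have hle1 := orderOf_subPGL_le hE (hle (Subgroup.mem_map_of_mem _ (hX1 htD))) (by
      rw [show orderOf ((MulAut.conj γ).toMonoidHom t) = k from ho]; exact hcop)
    rw [show orderOf ((MulAut.conj γ).toMonoidHom t) = k from ho] at hle1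
    have hsq : Nat.card K * Nat.card K ≤ Fintype.card F := by
      rw [hm', ← pow_two]; exact Nat.pow_le_pow_right (by omega) hm2
    rcases Nat.even_or_odd (Fintype.card F) with he | hod
    · have := hke he
      have : 3 * Nat.card K ≤ Nat.card K * Nat.card K := Nat.mul_le_mul_right _ hq3
      omega
    · have := hko hod
      obtain ⟨h7, h9⟩ : Fintype.card F ≠ 7 ∧ Fintype.card F ≠ 9 := by
        by_cases hu : IsRat F u
        · have := hr hu hod; omega
        · exact hn hu
      rcases (show Nat.card K = 3 ∨ Nat.card K = 4 ∨ 5 ≤ Nat.card K by omega) with e | e | e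
      · rw [e] at hle1 hm'
        rcases (show m = 2 ∨ 3 ≤ m by omega) with rfl | h
        · norm_num at hm'; omega
        · have : 3 ^ 3 ≤ Fintype.card F := hm' ▸ Nat.pow_le_pow_right (by norm_num) h
          omega
      · rw [e] at hle1 hsq; omega
      · have : 5 * Nat.card K ≤ Nat.card K * Nat.card K := Nat.mul_le_mul_right _ e
        omega

end Cfsg.Agent.Lib.PSLTwo
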