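import Cfsg.Agent.Lib.PSLTwo.SubfieldMax

/-! A maximal subgroup of `L`. -/

set_option autoImplicit false
set_option linter.unusedSectionVars false
set_option linter.style.haveILetI false
set_option linter.style.longLine false

open Matrix MulAction OnePoint
open scoped MatrixGroups

namespace Cfsg.Agent.Lib.PSLTwo

theorem maxIn_qA {F : Type*} [Field F] [Fintype F] [DecidableEq F] (p : ℕ) [Fact p.Prime] (hF : Fintype.card F = p) (h5 : 5 ≤ p)
    (h8 : p % 8 = 3 ∨ p % 8 = 5) (h10 : p % 10 ≠ 1 ∧ p % 10 ≠ 9) {a b : ℕ} (hxy : (a : F) ^ 2 + (b : F) ^ 2 = -1)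
    (h2 : (2 : F) ≠ 0) : MaxIn (qA hxy h2) (Lsub F) := by
  classical
  haveI : CharP F p := charP_of_card_eq_prime hF
  have hpp : p.Prime := Fact.out
  have hodd : Odd (Fintype.card F) := by rw [hF, Nat.odd_iff]; omega
  obtain ⟨E, _, _, _, hE⟩ := exists_quadExt F
  have hsq : ¬ IsSquare (2 : F) := by rw [FiniteField.isSquare_two_iff, hF]; omega
  have hle := qA_le_Lsub hxy h2
  have hno : NoFix E (qA hxy h2) := qA_no_fix hE hxy h2 le_rfl
  have hL := two_card_L hodd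
  rw [hF] at hL
  have h120 : 5 * (5 ^ 2 - 1) ≤ p * (p ^ 2 - 1) := nat_cube_mono h5
  norm_num at h120
  refine ⟨lt_of_le_of_ne hle fun e => ?_, fun X hX1 hX2 => ?_⟩
  · rw [← e, card_qA hxy h2] at hL
    omega
  rcases big_of_noFix (p := p) hE (hno.mono hX1) with ⟨-, hc, -⟩ | ⟨-, hc, -⟩ | ⟨-, hc, -⟩ | ⟨K, γ, hq, hK⟩
  · exact Or.inl (Subgroup.eq_of_le_of_card_ge hX1 (le_of_eq (by rw [hc, card_qA hxy h2]))).symm
  · exact absurd ((qN_le_Lsub_iff hxy h2).mp (eq_qN_of_card hxy h2 hX1 hc ▸ hX2)) hsq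
  · refine Or.inr (Subgroup.eq_of_le_of_card_ge hX2 ?_)
    have hdvd := Subgroup.card_dvd_of_le hX2
    rw [hc] at hdvd
    by_cases hp5 : p = 5
    · rw [hp5, show 5 * (5 ^ 2 - 1) = 120 by rfl] at hL; omega
    · exfalso
      have h5d : 5 ∣ p * (p ^ 2 - 1) := hL ▸ (dvd_trans (by norm_num) hdvd).mul_left 2
      rcases (Nat.Prime.dvd_mul (by norm_num : Nat.Prime 5)).mp h5d with d | d
      · rcases (Nat.dvd_prime hpp).mp d with e | e <;> omega
      · have h4 : p ^ 2 % 5 = 4 := by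
          have hp0 : p % 5 ≠ 0 := fun h0 => by
            rcases (Nat.dvd_prime hpp).mp (Nat.dvd_of_mod_eq_zero h0) with e | e <;> omega
          rw [Nat.pow_mod]; rcases (show p % 5 = 3 ∨ p % 5 = 2 by omega) with r | r <;> rw [r]
        have h1 : 1 ≤ p ^ 2 := Nat.one_le_pow _ _ (by omega)
        omega
  · obtain ⟨m, hm, hm'⟩ := exists_card_pow K
    rw [hF] at hm'
    have : Nat.card K = Fintype.card F := by
      rcases (Nat.dvd_prime hpp).mp (hm' ▸ dvd_pow_self (Nat.card K) (by omega)) with e | e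
      · omega
      · rw [hF, e]
    exact Or.inr (eq_Lsub_of_full hodd hX2 this hK)

end Cfsg.Agent.Lib.PSLTwo
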