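import Cfsg.Agent.Lib.PSLTwo.MaxTools

/-! The small dihedral subgroups that are not maximal. -/

set_option autoImplicit false
set_option linter.unusedSectionVars false
set_option linter.style.haveILetI false
set_option linter.style.longLine false

open Matrix MulAction OnePoint
open scoped MatrixGroups

namespace Cfsg.Agent.Lib.PSLTwo

variable {F E : Type*} [Field F] [Fintype F] [DecidableEq F] [Field E] [DecidableEq E] [Finite E]
  [Algebra F E] (hE : Nat.card E = Fintype.card F ^ 2)

include hE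

theorem not_maxIn_pair_of (hodd : Odd (Fintype.card F)) {u v : OnePoint E} (huv : IsTorusPair F u v) {k : ℕ}
    (hk2 : 2 ≤ k) (hk : Nat.card (torus F u v) = 2 * k) {Y : Subgroup PGL(2, F)} (hY : Y ≤ Lsub F)
    (hlt : Nat.card Y < Nat.card (Lsub F)) (hne : Nat.card Y ≠ 2 * k) {A : Type*} [Group A] (e : Y ≃* A) {t s : A}
    (hto : orderOf t = k) (hst : s * t * s⁻¹ = t⁻¹) (hsz : ∀ i, i < k → s ≠ t ^ i) :
    ¬ MaxIn (pairStab F u v ⊓ Lsub F) (Lsub F) := by
  intro hM
  classical
  haveI : (Lsub F).Normal := Lsub_normal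
  obtain ⟨γ, hγ⟩ := conj_pairStab_le hE hodd huv hk2 hk hY (t := (e.symm t : Y)) (s := (e.symm s : Y))
    (e.symm t).2 (e.symm s).2
    (by rw [Subgroup.orderOf_coe, MulEquiv.orderOf_eq, hto])
    (by
      rw [← Subgroup.coe_inv, ← Subgroup.coe_mul, ← Subgroup.coe_mul, ← map_inv, ← map_mul, ← map_mul, hst,
        map_inv, Subgroup.coe_inv])
    (fun hmem => by
      rw [(IsOfFinOrder.mem_zpowers_iff_mem_range_orderOf (isOfFinOrder_of_finite _)), Finset.mem_image] at hmem
      obtain ⟨i, hi, hie⟩ := hmem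
      rw [Finset.mem_range, Subgroup.orderOf_coe, MulEquiv.orderOf_eq, hto] at hi
      refine hsz i hi (e.symm.injective (Subtype.ext ?_))
      rw [map_pow, Subgroup.coe_pow]
      exact hie.symm)
  have hM' := hM.map_conj γ
  have hc : Nat.card (pairStab F u v ⊓ Lsub F : Subgroup PGL(2, F)) = 2 * k :=
    (pairStab_Lsub_spec hE hodd huv).1.trans hk
  rcases hM'.2 Y hγ hY with h | h
  · exact hne (by rw [h, card_conj_map, hc])
  · exact hlt.ne (by rw [h])

/-- The exceptions. -/
theorem not_maxIn_pair_small (hodd : Odd (Fintype.card F)) {u v : OnePoint E} (huv : IsTorusPair F u v)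
    (h : (IsRat F u ∧ 5 ≤ Fintype.card F ∧ Fintype.card F < 13) ∨
      (¬ IsRat F u ∧ (Fintype.card F = 7 ∨ Fintype.card F = 9))) :
    ¬ MaxIn (pairStab F u v ⊓ Lsub F) (Lsub F) := by
  have h2 : (2 : F) ≠ 0 := Ring.two_ne_zero (ringChar_ne_two hodd)
  obtain ⟨a, b, hxy⟩ := exists_sum_sq_neg_one F
  have hL := two_card_L hodd
  have byA : Fintype.card F = 5 → IsRat F u → ¬ MaxIn (pairStab F u v ⊓ Lsub F) (Lsub F) := fun h5 hr => by
    obtain ⟨e⟩ := qA_iso hxy h2
    rw [h5] at hL
    refine not_maxIn_pair_of hE hodd huv (k := 2) le_rfl (by rw [(card_torus hE huv).1 hr, h5])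
      (qA_le_Lsub hxy h2) (by rw [card_qA hxy h2]; omega) (by rw [card_qA hxy h2]; norm_num) e
      (t := ⟨c[0, 1] * c[2, 3], Equiv.Perm.mem_alternatingGroup.mpr (by decide +kernel)⟩)
      (s := ⟨c[0, 2] * c[1, 3], Equiv.Perm.mem_alternatingGroup.mpr (by decide +kernel)⟩)
      (orderOf_eq_prime (by decide +kernel) (by decide +kernel)) (by decide +kernel) (by decide +kernel)
  have byN : ∀ k, (k = 3 ∨ k = 4) → IsSquare (2 : F) → 7 ≤ Fintype.card F → Nat.card (torus F u v) = 2 * k →
      ¬ MaxIn (pairStab F u v ⊓ Lsub F) (Lsub F) := fun k hk hsq h7 hT => by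
    obtain ⟨e⟩ := qN_iso hxy h2
    have : 7 * (7 ^ 2 - 1) ≤ Fintype.card F * (Fintype.card F ^ 2 - 1) :=
      Nat.mul_le_mul h7 (Nat.sub_le_sub_right (Nat.pow_le_pow_left h7 2) 1)
    norm_num at this
    have hlt : Nat.card (qN hxy) < Nat.card (Lsub F) := by rw [card_qN hxy h2]; omega
    rcases hk with rfl | rfl
    · exact not_maxIn_pair_of hE hodd huv (by norm_num) hT ((qN_le_Lsub_iff hxy h2).mpr hsq) hlt
        (by rw [card_qN hxy h2]; norm_num) e (t := c[0, 1, 2]) (s := c[0, 1])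
        (orderOf_eq_prime (by decide +kernel) (by decide +kernel)) (by decide +kernel) (by decide +kernel)
    · exact not_maxIn_pair_of hE hodd huv (by norm_num) hT ((qN_le_Lsub_iff hxy h2).mpr hsq) hlt
        (by rw [card_qN hxy h2]; norm_num) e (t := c[0, 1, 2, 3]) (s := c[0, 2])
        ((orderOf_eq_prime_pow (p := 2) (n := 1) (by decide +kernel) (by decide +kernel)).trans (by norm_num))
        (by decide +kernel) (by decide +kernel)
  have byF : IsSquare (5 : F) → 9 ≤ Fintype.card F → Nat.card (torus F u v) = 2 * 5 →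
      ¬ MaxIn (pairStab F u v ⊓ Lsub F) (Lsub F) := fun h5 h9 hT => by
    obtain ⟨s, hs⟩ := h5
    have hs' : s ^ 2 = 5 := by rw [sq]; exact hs.symm
    obtain ⟨⟨e⟩, h60⟩ := qA5_iso hxy h2 hs'
    have : 9 * (9 ^ 2 - 1) ≤ Fintype.card F * (Fintype.card F ^ 2 - 1) :=
      Nat.mul_le_mul h9 (Nat.sub_le_sub_right (Nat.pow_le_pow_left h9 2) 1)
    norm_num at this
    exact not_maxIn_pair_of hE hodd huv (by norm_num) hT (qA5_le_Lsub hxy h2 hs') (by rw [h60]; omega)
      (by rw [h60]; norm_num) e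
      (t := ⟨c[0, 1, 2, 3, 4], Equiv.Perm.mem_alternatingGroup.mpr (by decide +kernel)⟩)
      (s := ⟨c[1, 4] * c[2, 3], Equiv.Perm.mem_alternatingGroup.mpr (by decide +kernel)⟩)
      (by haveI : Fact (Nat.Prime 5) := ⟨by norm_num⟩
          exact orderOf_eq_prime (by decide +kernel) (by decide +kernel)) (by decide +kernel) (by decide +kernel)
  rcases h with ⟨hr, h5, h13⟩ | ⟨hr, hq⟩
  · have hT := (card_torus hE huv).1 hr
    obtain ⟨j, hj⟩ := hodd
    rcases (show Fintype.card F = 5 ∨ Fintype.card F = 7 ∨ Fintype.card F = 9 ∨ Fintype.card F = 11 by omega) with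
      e | e | e | e
    · exact byA e hr
    · exact byN 3 (Or.inl rfl) (by rw [FiniteField.isSquare_two_iff, e]; norm_num) (by omega) (by omega)
    · exact byN 4 (Or.inr rfl) (by rw [FiniteField.isSquare_two_iff, e]; norm_num) (by omega) (by omega)
    · exact byF (isSquare_five_iff.mpr (Or.inl (by rw [e]; norm_num))) (by omega) (by omega)
  · have hT := (card_torus hE huv).2 hr
    rcases hq with e | e
    · exact byN 4 (Or.inr rfl) (by rw [FiniteField.isSquare_two_iff, e]; norm_num) (by omega) (by omega)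
    · exact byF (isSquare_five_iff.mpr (Or.inl (by rw [e]; norm_num))) (by omega) (by omega)

end Cfsg.Agent.Lib.PSLTwo
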