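import Cfsg.Agent.Lib.PSLTwo.Copies

/-! `PGL₂` over the fields with three and four elements. -/

set_option autoImplicit false
set_option linter.unusedSectionVars false
set_option linter.style.haveILetI false
set_option linter.style.longLine false

open Matrix MulAction OnePoint
open scoped MatrixGroups

namespace Cfsg.Agent.Lib.PSLTwo

variable {K : Type*} [Field K] [Fintype K]

theorem pgl_three_iso (h : Fintype.card K = 3) : Nonempty (PGL(2, K) ≃* Equiv.Perm (Fin 4)) := by
  classical
  obtain ⟨E, _, _, _, hE⟩ := exists_quadExt K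
  have hodd : Odd (Fintype.card K) := by rw [h]; decide
  have h2 : (2 : K) ≠ 0 := Ring.two_ne_zero (ringChar_ne_two hodd)
  obtain ⟨a, b, hxy⟩ := exists_sum_sq_neg_one K
  have htop : qN hxy = ⊤ := Subgroup.eq_top_of_card_eq _ (by rw [card_qN hxy h2, card_pgl, h]; rfl)
  obtain ⟨e⟩ := qN_iso hxy h2
  exact ⟨(Subgroup.topEquiv.symm.trans (MulEquiv.subgroupCongr htop.symm)).trans e⟩

theorem pgl_fix_all [DecidableEq K] {g : PGL(2, K)} (h : ∀ z : OnePoint K, g • z = z) : g = 1 := by
  classical
  obtain ⟨E, _, _, _, hE⟩ := exists_quadExt K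
  obtain ⟨p, hp⟩ := CharP.exists K
  haveI : Fact p.Prime := ⟨CharP.char_is_prime K p⟩
  have hi : Function.Injective (inc (F := K) E) := inc_injective
  refine (poles (F := K) (E := E) (p := p) hE).three g (inc E ∞) (inc E ((0 : K) : OnePoint K))
    (inc E ((1 : K) : OnePoint K)) ?_ ?_ ?_ (by rw [← inc_smul, h]) (by rw [← inc_smul, h]) (by rw [← inc_smul, h])
  · exact fun e => OnePoint.infty_ne_coe _ (hi e)
  · exact fun e => OnePoint.infty_ne_coe _ (hi e)
  · exact fun e => zero_ne_one (OnePoint.coe_injective (hi e))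

theorem exists_alt_four_of_four (h : Fintype.card K = 4) :
    ∃ S : Subgroup PGL(2, K), Nonempty (S ≃* alternatingGroup (Fin 4)) := by
  classical
  obtain ⟨E, _, _, _, hE⟩ := exists_quadExt K
  refine ⟨stabilizer PGL(2, K) (∞ : OnePoint K), equiv_alt_four_of_action
    (Y := SubMulAction.ofStabilizer PGL(2, K) (∞ : OnePoint K)) ?_ (by rw [card_stab_point, h]) fun g hg => ?_⟩
  · rw [SubMulAction.nat_card_ofStabilizer_eq, card_onePoint, h]
  · refine Subtype.ext (pgl_fix_all fun z => ?_)
    by_cases hz : z = ∞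
    · exact hz ▸ g.2
    · exact congrArg Subtype.val (hg ⟨z, hz⟩)

theorem pgl_four_iso (h : Fintype.card K = 4) : Nonempty (PGL(2, K) ≃* alternatingGroup (Fin 5)) := by
  classical
  obtain ⟨E, _, _, _, hE⟩ := exists_quadExt K
  haveI := Fintype.ofFinite (OnePoint K)
  have hc : Fintype.card (OnePoint K) = 5 := by rw [← Nat.card_eq_fintype_card, card_onePoint, h]
  let φ : PGL(2, K) →* Equiv.Perm (Fin 5) :=
    (Fintype.equivFinOfCardEq hc).permCongrHom.toMonoidHom.comp (MulAction.toPermHom PGL(2, K) (OnePoint K))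
  have hφ : Function.Injective φ := by
    rw [injective_iff_map_eq_one]
    intro g hg
    have h1 : MulAction.toPermHom PGL(2, K) (OnePoint K) g = 1 :=
      (Fintype.equivFinOfCardEq hc).permCongrHom.injective (hg.trans (map_one _).symm)
    exact pgl_fix_all fun z => congrArg (fun e : Equiv.Perm (OnePoint K) => e z) h1
  have hidx : φ.range.index = 2 := by
    have h1 := Subgroup.card_mul_index φ.range
    rw [Nat.card_congr (MonoidHom.ofInjective hφ).symm.toEquiv, card_pgl, h, Nat.card_perm, Nat.card_fin] at h1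
    have : (4 * (4 ^ 2 - 1)) * φ.range.index = 120 := h1
    omega
  exact ⟨(MonoidHom.ofInjective hφ).trans
    (MulEquiv.subgroupCongr (Equiv.Perm.eq_alternatingGroup_of_index_eq_two hidx))⟩

end Cfsg.Agent.Lib.PSLTwo
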