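import Cfsg.Agent.Lib.PSLTwo.Classify

/-! Solvable subgroups generated by two elements of `PGL₂(q)`. -/

set_option autoImplicit false
set_option linter.unusedSectionVars false
set_option linter.style.longLine false

open Matrix MulAction OnePoint
open scoped MatrixGroups

namespace Cfsg.Agent.Lib.PSLTwo

theorem isSolvable_of_comm {G : Type*} [Group G] (H A : Subgroup G)
    (hd : ∀ g ∈ H, ∀ h ∈ H, g * h * g⁻¹ * h⁻¹ ∈ A) (hA : ∀ a ∈ A, ∀ b ∈ A, a * b = b * a) :
    Group.IsSolvable H := by
  have h1 : derivedSeries H 1 ≤ A.subgroupOf H := by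
    rw [derivedSeries_succ, derivedSeries_zero, Subgroup.commutator_le]
    rintro g - h -
    exact hd g g.2 h h.2
  refine ⟨2, ?_⟩
  rw [derivedSeries_succ, eq_bot_iff]
  refine (Subgroup.commutator_mono h1 h1).trans (Subgroup.commutator_le.2 fun a ha b hb => ?_)
  rw [Subgroup.mem_bot, commutatorElement_eq_one_iff_mul_comm]
  exact Subtype.ext (hA _ ha _ hb)

variable {F E : Type*} [Field F] [Fintype F] [DecidableEq F] [Field E] [DecidableEq E] [Finite E]
  [Algebra F E]
  (hE : Nat.card E = Fintype.card F ^ 2)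

include hE

theorem isSolvable_stab (z : OnePoint E) : Group.IsSolvable (stabilizer PGL(2, F) z) := by
  obtain ⟨p, hpc⟩ := CharP.exists F
  haveI : Fact p.Prime := ⟨CharP.char_is_prime F p⟩
  have P := poles (E := E) (p := p) hE
  refine isSolvable_of_comm _ (P.unip z) (fun g hg h hh => ⟨?_, P.comm g h z hg hh⟩) fun a ha b hb =>
    P.uni a b z ha.1 hb.1 ha.2 hb.2
  exact mul_mem (mul_mem (mul_mem hg hh) (inv_mem hg)) (inv_mem hh)

theorem isSolvable_pairStab {x y : OnePoint E} (hxy : x ≠ y) :
    Group.IsSolvable (pairStab F x y) := by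
  obtain ⟨p, hpc⟩ := CharP.exists F
  haveI : Fact p.Prime := ⟨CharP.char_is_prime F p⟩
  have P := poles (E := E) (p := p) hE
  haveI := P.cyc x y hxy
  refine isSolvable_of_comm _ (torus F x y) (fun g hg h hh => ?_) fun a ha b hb =>
    congrArg Subtype.val (IsCyclic.commGroup.mul_comm (⟨a, ha⟩ : ↥(torus F x y)) ⟨b, hb⟩)
  have hg' : g⁻¹ ∈ pairStab F x y := inv_mem hg
  rw [Subgroup.mem_inf, mem_stabilizer_iff, mem_stabilizer_iff]
  simp only [mul_smul]
  rcases hg with ⟨g1, g2⟩ | ⟨g1, g2⟩ <;> rcases hh with ⟨h1, h2⟩ | ⟨h1, h2⟩ <;>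
    constructor <;>
    simp [h1, h2, g1, g2, inv_smul_eq_iff.mpr h1.symm, inv_smul_eq_iff.mpr h2.symm,
      inv_smul_eq_iff.mpr g1.symm, inv_smul_eq_iff.mpr g2.symm]

omit hE in
theorem closure_pair_le_iff {G : Type*} [Group G] {x y : G} {H : Subgroup G} :
    Subgroup.closure {x, y} ≤ H ↔ x ∈ H ∧ y ∈ H := by
  simp [Subgroup.closure_le, Set.insert_subset_iff]

omit hE in
theorem isSolvable_closure {G : Type*} [Group G] {x y : G} {H : Subgroup G} [Group.IsSolvable H]
    (hx : x ∈ H) (hy : y ∈ H) : Group.IsSolvable (Subgroup.closure {x, y}) :=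
  solvable_of_solvable_injective (Subgroup.inclusion_injective (closure_pair_le_iff.2 ⟨hx, hy⟩))

/-- Two involutions generate a solvable group. -/
theorem isSolvable_two_invol {x y : PGL(2, F)} (hx : x * x = 1) (hy : y * y = 1) :
    Group.IsSolvable (Subgroup.closure {x, y}) := by
  obtain ⟨p, hpc⟩ := CharP.exists F
  haveI : Fact p.Prime := ⟨CharP.char_is_prime F p⟩
  have P := poles (E := E) (p := p) hE
  obtain ⟨z, hz⟩ := P.exists_fix (x * y)
  have hconj : x * (x * y) * x = (x * y)⁻¹ := by
    refine eq_inv_of_mul_eq_one_left ?_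
    rw [show x * (x * y) * x * (x * y) = x * x * y * (x * x) * y by simp only [mul_assoc], hx, one_mul,
      mul_one, hy]
  have hmaps : ∀ u : OnePoint E, (x * y) • u = u → (x * y) • (x • u) = x • u := by
    intro u hu
    have h1 : (x * y) * x = x * (x * y)⁻¹ := by
      rw [← hconj, ← mul_assoc x (x * (x * y)) x, ← mul_assoc x x, hx, one_mul]
    rw [← mul_smul, h1, mul_smul, inv_smul_eq_iff.mpr hu.symm]
  by_cases h1 : x * y = 1
  · have hyx : y = x := by
      rw [← inv_eq_of_mul_eq_one_right h1]
      exact inv_eq_of_mul_eq_one_right hx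
    subst hyx
    obtain ⟨u, hu⟩ := P.exists_fix y
    haveI := isSolvable_stab hE u
    exact isSolvable_closure (H := stabilizer PGL(2, F) u) hu hu
  by_cases hu : ∀ u : OnePoint E, (x * y) • u = u → u = z
  · have hxz : x • z = z := hu _ (hmaps z hz)
    have hyz : y • z = z := by
      rw [mul_smul] at hz
      exact smul_left_cancel x (hz.trans hxz.symm)
    haveI := isSolvable_stab hE z
    exact isSolvable_closure (H := stabilizer PGL(2, F) z) hxz hyz
  · push Not at hu
    obtain ⟨w, hw, hwz⟩ := hu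
    have hmem : ∀ u : OnePoint E, (x * y) • u = u → u = z ∨ u = w := fun u hu => by
      by_contra hne
      push Not at hne
      exact h1 (P.three _ u z w hne.1 hne.2 hwz.symm hu hz hw)
    have hxm : x ∈ pairStab F z w := by
      rcases hmem _ (hmaps z hz) with a | a <;> rcases hmem _ (hmaps w hw) with b | b
      · exact absurd (smul_left_cancel x (b.trans a.symm)) hwz
      · exact Or.inl ⟨a, b⟩
      · exact Or.inr ⟨a, b⟩
      · exact absurd (smul_left_cancel x (b.trans a.symm)) hwz
    have htm : x * y ∈ pairStab F z w := Or.inl ⟨hz, hw⟩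
    have hym : y ∈ pairStab F z w := by
      have := mul_mem hxm htm
      rwa [← mul_assoc, hx, one_mul] at this
    haveI := isSolvable_pairStab hE (F := F) hwz.symm
    exact isSolvable_closure hxm hym

theorem closure_dihedral {x y : PGL(2, F)} (hx : x * x = 1)
    (h : y * y = 1 ∨ x * y * (x * y) = 1) : Group.IsSolvable (Subgroup.closure {x, y}) := by
  rcases h with h | h
  · exact isSolvable_two_invol hE hx h
  · haveI := isSolvable_two_invol hE hx h
    refine isSolvable_closure (H := Subgroup.closure {x, x * y}) (Subgroup.subset_closure (by simp)) ?_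
    have := mul_mem (Subgroup.subset_closure (Set.mem_insert x {x * y}))
      (Subgroup.subset_closure (Set.mem_insert_of_mem x (Set.mem_singleton (x * y))))
    rwa [← mul_assoc, hx, one_mul] at this

/-- An element fixing two points fixes no third. -/
theorem fix_cases {g : PGL(2, F)} (hg : g ≠ 1) {z w u : OnePoint E} (hzw : z ≠ w)
    (hz : g • z = z) (hw : g • w = w) (hu : g • u = u) : u = z ∨ u = w := by
  obtain ⟨p, hpc⟩ := CharP.exists F
  haveI : Fact p.Prime := ⟨CharP.char_is_prime F p⟩
  have P := poles (E := E) (p := p) hE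
  by_contra hne
  push Not at hne
  exact hg (P.three _ u z w hne.1 hne.2 hzw hu hz hw)

theorem pairStab_eq_of_fix {g : PGL(2, F)} (hg : g ≠ 1) {z w u v : OnePoint E} (hzw : z ≠ w)
    (huv : u ≠ v) (hz : g • z = z) (hw : g • w = w) (hu : g • u = u) (hv : g • v = v) :
    pairStab F u v = pairStab F z w := by
  rcases fix_cases hE hg hzw hz hw hu with rfl | rfl <;>
    rcases fix_cases hE hg hzw hz hw hv with rfl | rfl
  · exact absurd rfl huv
  · rfl
  · ext a
    simp only [mem_pairStab]
    tauto
  · exact absurd rfl huv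

/-- An element that is not a `p`-element fixes a torus pair. -/
theorem exists_fixed_torus_pair {p : ℕ} [Fact p.Prime] [CharP F p] {g : PGL(2, F)} (hgp : g ^ p ≠ 1) :
    ∃ z w : OnePoint E, IsTorusPair F z w ∧ g • z = z ∧ g • w = w := by
  have P := poles (E := E) (p := p) hE
  have hg : g ≠ 1 := fun h => hgp (by rw [h, one_pow])
  obtain ⟨z, hz⟩ := P.exists_fix g
  have := (P.pElem g z hg hz).not.1 hgp
  push Not at this
  obtain ⟨w, hw, hwz⟩ := this
  exact ⟨z, w, torusPair_of_fix hE hwz.symm hg hz hw, hz, hw⟩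

end Cfsg.Agent.Lib.PSLTwo
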