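import Cfsg.Agent.Lib.PSLTwo.SubfieldMax

/-! A maximal subgroup of `L`. -/

set_option autoImplicit false
set_option linter.unusedSectionVars false
set_option linter.style.haveILetI false
set_option linter.style.longLine false

open Matrix MulAction OnePoint
open scoped MatrixGroups

namespace Cfsg.Agent.Lib.PSLTwo

theorem maxIn_subPSL {F : Type*} [Field F] [Fintype F] [DecidableEq F] {p a r : ℕ} [Fact p.Prime] [CharP F p]
    (hodd : Odd (Fintype.card F)) (ha : a ≠ 0) (hr : r.Prime) (hr2 : r ≠ 2) (hF' : Fintype.card F = p ^ (a * r))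
    (K' : Subfield F) (hK0 : Nat.card K' = p ^ a) : MaxIn (subPSL K') (Lsub F) := by
  classical
  obtain ⟨q, hqa⟩ : ∃ q, q = p ^ a := ⟨_, rfl⟩
  have hK' : Nat.card K' = q := hK0.trans hqa.symm
  have hF : Fintype.card F = q ^ r := by rw [hF', hqa, ← pow_mul]
  have hq : Odd q := hK' ▸ odd_card_subfield hodd K'
  have hrodd : Odd r := hr.odd_of_ne_two hr2
  have hq3 : 3 ≤ q := by
    have := hK' ▸ one_lt_card_subfield K'; obtain ⟨k, rfl⟩ := hq; omega
  have hqF : q < Fintype.card F := by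
    rw [hF]; exact lt_self_pow₀ (show 1 < q by omega) hr.one_lt
  have h2 : (2 : F) ≠ 0 := Ring.two_ne_zero (ringChar_ne_two hodd)
  obtain ⟨x, y, hxy⟩ := exists_sum_sq_neg_one F
  obtain ⟨E, _, _, _, hE⟩ := exists_quadExt F
  have hnle : ¬ subPGL K' ≤ Lsub F := by
    rw [subPGL_le_Lsub_iff, forall_square_iff hodd K' (m := r) (by rw [hK', hF]), Nat.not_even_iff_odd]
    exact hrodd
  have hle : subPSL K' ≤ Lsub F := subPSL_le_Lsub K'
  have hqA : qA hxy h2 ≤ subPSL K' := by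
    rw [← subPGL_inf_Lsub hodd K' hnle]
    exact le_inf (qA_le_subPGL hxy h2 (natCast_mem K' x) (natCast_mem K' y)) (qA_le_Lsub hxy h2)
  have hno : NoFix E (subPSL K') := qA_no_fix hE hxy h2 hqA
  have hL := two_card_L hodd
  have hcK : 2 * Nat.card (subPSL K') = q * (q ^ 2 - 1) := by
    rw [two_mul_card_subPSL K' (hK' ▸ hq), hK']
  have hlt := nat_cube_lt hqF Fintype.one_lt_card
  have hsq3 : q = 3 → ¬ IsSquare (2 : F) := fun h => by
    obtain ⟨j, rfl⟩ := hrodd
    rw [FiniteField.isSquare_two_iff, hF, h, pow_succ, pow_mul, Nat.mul_mod, Nat.pow_mod]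
    norm_num
  have h5 : q = 3 → ¬ 5 ∣ Fintype.card F * (Fintype.card F ^ 2 - 1) := fun h hd => by
    rcases (Nat.Prime.dvd_mul (by norm_num : Nat.Prime 5)).mp hd with d | d
    · rw [hF, h] at d
      have := (Nat.prime_dvd_prime_iff_eq (by norm_num) (by norm_num)).mp
        ((by norm_num : Nat.Prime 5).dvd_of_dvd_pow d)
      omega
    · have : Fintype.card F ^ 2 % 5 = 4 := by
        obtain ⟨j, rfl⟩ := hrodd
        rw [hF, h, ← pow_mul, mul_comm, pow_mul, Nat.pow_mod]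
        norm_num
        rw [pow_succ, pow_mul, Nat.mul_mod, Nat.pow_mod]
        norm_num
      omega
  refine ⟨lt_of_le_of_ne hle fun e => ?_, fun X hX1 hX2 => ?_⟩
  · rw [← e, hcK] at hL; omega
  have hdvd : q * (q ^ 2 - 1) ∣ 2 * Nat.card X := hcK ▸ Nat.mul_dvd_mul_left 2 (Subgroup.card_dvd_of_le hX1)
  have hq5 : ∀ m, q * (q ^ 2 - 1) ∣ 2 * m → 0 < m → m ≤ 60 → q = 3 ∨ (q = 5 ∧ m = 60) := by
    intro m hd hm0 hm
    have hle2 := Nat.le_of_dvd (by omega) hd
    by_cases h7 : 7 ≤ q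
    · have : 7 * (7 ^ 2 - 1) ≤ q * (q ^ 2 - 1) := nat_cube_mono h7
      omega
    · rcases (show q = 3 ∨ q = 5 by obtain ⟨k, rfl⟩ := hq; omega) with rfl | rfl
      · exact Or.inl rfl
      · refine Or.inr ⟨rfl, ?_⟩
        norm_num at hd
        omega
  rcases big_of_noFix (p := p) hE (hno.mono hX1) with ⟨-, hc, -⟩ | ⟨-, hc, -⟩ | ⟨-, hc, -⟩ | ⟨K₁, γ, -, h⟩
  · rcases hq5 12 (hc ▸ hdvd) (by norm_num) (by norm_num) with rfl | ⟨-, h⟩
    · exact Or.inl (Subgroup.eq_of_le_of_card_ge hX1 (by norm_num at hcK; omega)).symm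
    · norm_num at h
  · rcases hq5 24 (hc ▸ hdvd) (by norm_num) (by norm_num) with e | ⟨-, h⟩
    · exact absurd ((qN_le_Lsub_iff hxy h2).mp (eq_qN_of_card hxy h2 (hqA.trans hX1) hc ▸ hX2)) (hsq3 e)
    · norm_num at h
  · rcases hq5 60 (hc ▸ hdvd) (by norm_num) (by norm_num) with e | ⟨rfl, -⟩
    · refine absurd ?_ (h5 e)
      rw [← hL]
      exact ((by norm_num : 5 ∣ 60).trans (hc ▸ Subgroup.card_dvd_of_le hX2)).mul_left 2
    · exact Or.inl (Subgroup.eq_of_le_of_card_ge hX1 (by norm_num at hcK; omega)).symm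
  · by_cases hfull : Nat.card K₁ = Fintype.card F
    · exact Or.inr (eq_Lsub_of_full hodd hX2 hfull h)
    left
    have hK₁ : Nat.card K₁ = q := by
      rcases card_of_subfield h with c | ⟨-, c⟩
      · rcases exponent_dvd ha hF' hr K₁ (dvd_refl 2) (by rw [← hqa, ← c]; exact hdvd) with e | e
        · rw [e, hqa]
        · exact absurd e hfull
      · rcases exponent_dvd ha hF' hr K₁ (one_dvd 2) (by rw [← hqa, one_mul, ← c]; exact hdvd) with e | e
        · rw [e, hqa]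
        · exact absurd e hfull
    obtain rfl : K₁ = K' := subfield_eq_of_card (hK₁.trans hK'.symm)
    rcases h with h | ⟨-, h⟩
    · exact absurd (h ▸ conj_le_Lsub hX2 γ) hnle
    · exact (Subgroup.eq_of_le_of_card_ge hX1 (by rw [← card_conj_map X γ, h])).symm

end Cfsg.Agent.Lib.PSLTwo
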